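import Cfsg.Agent.H967.FaBase
import Cfsg.Agent.H561.RV.AutCrit
import Cfsg.Agent.S1065
import Cfsg.Agent.S1054
import Cfsg.Agent.S1055
import Cfsg.Agent.S2125

/-!
# `AutOdd` for the Chevalley groups `G₂`, `F₄`, `E₇`, `E₈` in odd characteristic (helper81, task 4525)

* `autOdd_of_stab` : the criterion for a matrix group stable under the field automorphisms whose outer automorphism group has
  the order `2-power · f` and a subgroup over the fixed field of the field automorphisms of odd order has odd index;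
* `autOdd_g2`, `autOdd_f4`, `autOdd_e7`, `autOdd_e8`.
-/

set_option autoImplicit false

namespace Cfsg.Agent.H81.AoChev

open Cfsg Cfsg.Lie Subgroup Cfsg.Agent.H967.CopMat Cfsg.Agent.H967.CopRow Cfsg.Agent.H967.CopChev
  Cfsg.Agent.H967.FaBase Cfsg.Agent.H561.RV Cfsg.Agent.ChevalleyStructure.Elts
open scoped Pointwise

/-- **The criterion**: `AutOdd` of a matrix group stable under the field automorphisms. -/
theorem autOdd_of_stab {ι : Type*} [Fintype ι] [DecidableEq ι] {F : Type*} [Field F] [Fintype F] {G : Subgroup (GL ι F)}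
    (hG : Stab G) (hs : Group.IsSolvable (Cfsg.Out ↥G)) {p f : ℕ} [Fact p.Prime] [CharP F p] (hf : 1 ≤ f)
    (hF : Fintype.card F = p ^ f)
    (hinn : ∀ σ : F ≃+* F, σ ≠ 1 → fieldAut hG σ ∉ Cfsg.Inn ↥G)
    (hout : ∀ r : ℕ, r.Prime → r ≠ 2 → ∀ k, r ^ k ∣ Nat.card (Cfsg.Out ↥G) → r ^ k ∣ f)
    (hfix : ∀ (E : Subfield F) (m : ℕ), Odd m → Nat.card F = Nat.card ↥E ^ m →
      ∃ G₀ : Subgroup (GL ι ↥E), G₀.map (Matrix.GeneralLinearGroup.map E.subtype) ≤ G ∧
        ¬ 2 ∣ (G₀.map (Matrix.GeneralLinearGroup.map E.subtype)).relIndex G) :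
    AutOdd ↥G := by
  have hfin : Finite (F ≃+* F) := Finite.of_injective (fun f : F ≃+* F => (f : F → F)) DFunLike.coe_injective
  have hfinG : Finite ↥G := inferInstance
  have hfinA : Finite (MulAut ↥G) := Finite.of_injective (fun f : MulAut ↥G => (f : ↥G → ↥G)) DFunLike.coe_injective
  obtain ⟨τ, hτ⟩ := exists_ringAut p f hF
  obtain ⟨b, m, hm, hfm⟩ := Nat.exists_eq_two_pow_mul_odd (n := f) (by omega)
  set σ : F ≃+* F := τ ^ 2 ^ b with hσ
  have hoσ : orderOf σ = m := by
    rw [hσ, orderOf_pow_of_dvd (pow_ne_zero _ two_ne_zero) (by rw [hτ, hfm]; exact dvd_mul_right _ _), hτ, hfm]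
    exact Nat.mul_div_cancel_left m (Nat.two_pow_pos b)
  obtain ⟨G₀, hG₀, hodd⟩ := hfix (Fx σ) m hm (by rw [card_Fx σ, hoσ])
  set H : Subgroup ↥G := (G₀.map (Matrix.GeneralLinearGroup.map (Fx σ).subtype)).subgroupOf G with hH
  -- the Sylow subgroup
  obtain ⟨Q⟩ : Nonempty (Sylow 2 H) := inferInstance
  have h1 : ¬ 2 ∣ ((Q : Subgroup H).map H.subtype).index := by
    rw [index_map_subtype]
    intro hd
    rcases (Nat.prime_two.dvd_mul).1 hd with h | h
    · exact Q.not_dvd_index h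
    · exact hodd h
  set P₀ : Sylow 2 ↥G := (Q.isPGroup'.map H.subtype).toSylow h1 with hP₀
  have hP₀H : ∀ x ∈ P₀, x ∈ H := fun x hx => map_subtype_le _ hx
  have hfixH : ∀ x ∈ H, fieldAut hG σ x = x := by
    rintro x ⟨y, hy, hyx⟩
    have h2 : Matrix.GeneralLinearGroup.map (Fx σ).subtype y = (x : GL ι F) := hyx
    apply Subtype.ext
    rw [coe_fieldAut, ← h2]
    exact map_fixed σ y
  refine autOdd_of_index hs P₀ (zpowers (fieldAut hG σ)) ?_ ?_
  · intro φ hφ x hx
    have h3 : (⟨fieldAut hG σ, mem_zpowers _⟩ : zpowers (fieldAut hG σ)) = ⟨fieldAut hG σ, mem_zpowers _⟩ := rfl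
    have hle : zpowers (fieldAut hG σ) ≤ MulAction.stabilizer (MulAut ↥G) x := by
      rw [zpowers_le]
      exact hfixH x (hP₀H x hx)
    exact hle hφ
  · intro r hr hd
    by_contra hr2
    set mk := QuotientGroup.mk' (Inn ↥G) with hmk
    set C := zpowers (fieldAut hG σ) with hC
    have hidx : (C.map mk).index = (C ⊔ Inn ↥G).index := by
      rw [index_map, hmk, QuotientGroup.ker_mk', MonoidHom.range_eq_top.2 (QuotientGroup.mk'_surjective _),
        index_top, mul_one]
    have hcard : Nat.card (C.map mk) = m := by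
      have h2 : C.map mk = zpowers ((mk.comp (fieldAut hG)) σ) := by
        rw [hC, MonoidHom.map_zpowers]; rfl
      rw [h2, Nat.card_zpowers, orderOf_injective (mk.comp (fieldAut hG)) _ σ, hoσ]
      rw [injective_iff_map_eq_one]
      intro ρ hρ
      by_contra hne
      exact hinn ρ hne ((QuotientGroup.eq_one_iff _).1 hρ)
    have hmul := (C.map mk).card_mul_index
    rw [hcard, hidx] at hmul
    have hm0 : m ≠ 0 := by rintro rfl; simp at hm
    obtain ⟨v, s, hs', hms⟩ := Nat.exists_eq_pow_mul_and_not_dvd hm0 r hr.ne_one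
    have h4 : r ^ (v + 1) ∣ f := by
      refine hout r hr hr2 (v + 1) ?_
      have h5 : r ^ (v + 1) ∣ m * (C ⊔ Inn ↥G).index := by
        rw [pow_succ]
        exact mul_dvd_mul (by rw [hms]; exact dvd_mul_right _ _) hd
      rw [hmul] at h5
      exact h5
    have h6 : r ^ (v + 1) ∣ m := by
      rw [hfm] at h4
      refine Nat.Coprime.dvd_of_dvd_mul_left ?_ h4
      exact Nat.Coprime.pow _ _ ((Nat.coprime_primes hr Nat.prime_two).2 hr2)
    rw [hms, pow_succ] at h6
    exact hs' ((mul_dvd_mul_iff_left (pow_ne_zero v hr.ne_zero)).1 h6)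

/-! ### Odd multiples -/

/-- `b` is an odd multiple of `a` -/
def OddMul (a b : ℕ) : Prop := ∃ t, Odd t ∧ b = a * t

theorem OddMul.mul {a b c d : ℕ} (h : OddMul a b) (h' : OddMul c d) : OddMul (a * c) (b * d) := by
  obtain ⟨t, ht, rfl⟩ := h
  obtain ⟨s, hs, rfl⟩ := h'
  exact ⟨t * s, ht.mul hs, by ring⟩

theorem oddMul_odd {a b : ℕ} (hd : a ∣ b) (hb : Odd b) : OddMul a b := by
  obtain ⟨t, rfl⟩ := hd
  exact ⟨t, (Nat.odd_mul.1 hb).2, rfl⟩

theorem oddMul_pow {q m : ℕ} (hq : Odd q) (hm : Odd m) (N : ℕ) : OddMul (q ^ N) ((q ^ m) ^ N) := by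
  refine oddMul_odd ?_ (hq.pow.pow)
  rw [← pow_mul]
  refine pow_dvd_pow q ?_
  exact Nat.le_mul_of_pos_left N hm.pos

theorem oddMul_sub {q m : ℕ} (hq : Odd q) (hm : Odd m) (d : ℕ) : OddMul (q ^ d - 1) ((q ^ m) ^ d - 1) := by
  refine ⟨∑ i ∈ Finset.range m, (q ^ d) ^ i, ?_, ?_⟩
  · rw [Finset.odd_sum_iff_odd_card_odd]
    have h1 : (Finset.range m).filter (fun i => Odd ((q ^ d) ^ i)) = Finset.range m :=
      Finset.filter_true_of_mem fun i _ => (hq.pow).pow
    rw [h1, Finset.card_range]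
    exact hm
  · have h1 : (q ^ m) ^ d = (q ^ d) ^ m := by rw [← pow_mul, ← pow_mul, mul_comm]
    have h2 : 1 ≤ q ^ d := Nat.one_le_pow _ _ hq.pos
    have h3 := geom_sum_mul_add (q ^ d - 1) m
    rw [Nat.sub_add_cancel h2] at h3
    rw [h1, ← h3, Nat.add_sub_cancel, mul_comm]

/-- `q ^ N ∏ (q ^ d - 1)` -/
theorem oddMul_prod {q m : ℕ} (hq : Odd q) (hm : Odd m) (N : ℕ) (l : List ℕ) :
    OddMul (q ^ N * (l.map fun d => q ^ d - 1).prod) ((q ^ m) ^ N * (l.map fun d => (q ^ m) ^ d - 1).prod) := by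
  refine (oddMul_pow hq hm N).mul ?_
  induction l with
  | nil => exact ⟨1, odd_one, rfl⟩
  | cons d l ih =>
    simp only [List.map_cons, List.prod_cons]
    exact (oddMul_sub hq hm d).mul ih

/-! ### Chevalley groups -/

section Chev

universe u

variable {F : Type u} [Field F] [Fintype F]

/-- the criterion for the Chevalley groups -/
theorem autOdd_chev {D : ChevalleyDatum} (hD : InList D) (hs : Schreier.Basic.Sch ↥(D.group F))
    (hodd : Odd (Fintype.card F)) {c c' : ℕ} (hc : c ≠ 0) (hc' : ∀ r : ℕ, r.Prime → r ∣ c' → r = 2)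
    (hout : ∀ p f : ℕ, p.Prime → CharP F p → Fintype.card F = p ^ f → Nat.card (Cfsg.Out ↥(D.group F)) ∣ c' * f)
    (N : ℕ) (l : List ℕ)
    (hcard : ∀ (E : Type u) [Field E] [Fintype E], Odd (Fintype.card E) →
      c * Nat.card ↥(D.group E) = Fintype.card E ^ N * (l.map fun d => Fintype.card E ^ d - 1).prod)
    (hcardF : c * Nat.card ↥(D.group F) = Fintype.card F ^ N * (l.map fun d => Fintype.card F ^ d - 1).prod) :
    AutOdd ↥(D.group F) := by
  obtain ⟨p, f, hp, hchar, hf, hF⟩ := exists_char F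
  have : Fact p.Prime := ⟨hp⟩
  refine autOdd_of_stab (stab_group D F) (H254.isSolvable_out_of_sch hs) hf hF (fun σ h => not_inner hD σ h) ?_ ?_
  · intro r hr hr2 k hk
    have h1 : (r ^ k).Coprime c' := by
      apply Nat.Coprime.pow_left
      rw [hr.coprime_iff_not_dvd]
      exact fun h => hr2 (hc' r hr h)
    exact h1.dvd_of_dvd_mul_left (hk.trans (hout p f hp hchar hF))
  · intro E m hm hE
    have : Fintype ↥E := Fintype.ofFinite _
    rw [Nat.card_eq_fintype_card, Nat.card_eq_fintype_card] at hE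
    have hEodd : Odd (Fintype.card ↥E) := by
      rw [hE] at hodd
      exact hodd.of_dvd_nat (dvd_pow_self _ hm.pos.ne')
    refine ⟨D.group ↥E, map_group_le D E.subtype, ?_⟩
    have h1 : Nat.card ↥((D.group ↥E).map (Matrix.GeneralLinearGroup.map E.subtype)) = Nat.card ↥(D.group ↥E) :=
      (Nat.card_congr ((D.group ↥E).equivMapOfInjective _ (map_injective E.subtype)).toEquiv).symm
    have h2 := card_mul_index (((D.group ↥E).map (Matrix.GeneralLinearGroup.map E.subtype)).subgroupOf (D.group F))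
    rw [Nat.card_congr (subgroupOfEquivOfLe (map_group_le D E.subtype)).toEquiv, h1] at h2
    obtain ⟨t, ht, h3⟩ := oddMul_prod hEodd hm N l
    rw [← hE, ← hcardF, ← hcard ↥E hEodd, mul_assoc] at h3
    have h4 := Nat.eq_of_mul_eq_mul_left (Nat.pos_of_ne_zero hc) h3
    rw [← h2] at h4
    have h5 := Nat.eq_of_mul_eq_mul_left Nat.card_pos h4
    rw [relIndex, h5]
    exact fun h => Nat.not_even_iff_odd.2 ht (even_iff_two_dvd.2 h)

end Chev

section types

variable {F : Type*} [Field F] [Fintype F]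

theorem two_of_dvd_two {r : ℕ} (hr : r.Prime) (h : r ∣ 2) : r = 2 :=
  (Nat.prime_dvd_prime_iff_eq hr Nat.prime_two).1 h

/-- **`G₂`** -/
theorem autOdd_g2 (h3 : 3 ≤ Fintype.card F) (hodd : Odd (Fintype.card F)) : AutOdd ↥(Lie.chevG2.group F) := by
  have : IsSimpleGroup ↥(Lie.chevG2.group F) := by
    classical
    obtain ⟨a, ha⟩ := Fintype.exists_ne_of_one_lt_card (α := Fˣ) (by rw [Fintype.card_units]; omega) 1
    exact (S1055.result ⟨(a : F), a.ne_zero, fun h => ha (Units.ext h)⟩).1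
  refine autOdd_chev (by simp) (Schreier.Chev.sch_g2 F) hodd (c := 1) (c' := 2) one_ne_zero
    (fun r hr h => two_of_dvd_two hr h) ?_ 6 [2, 6] ?_ ?_
  · intro p f hp hc hF
    have : Fact p.Prime := ⟨hp⟩
    rw [S2121.result p f hF (by rw [← hF]; exact h3)]
    split_ifs
    · exact dvd_rfl
    · exact dvd_mul_left _ _
  · intro E _ _ _
    rw [S1059.result rfl]
    simp [mul_assoc]
  · rw [S1059.result rfl]
    simp [mul_assoc]

/-- **`F₄`** -/
theorem autOdd_f4 (hodd : Odd (Fintype.card F)) : AutOdd ↥(Lie.chevF4.group F) := by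
  have : IsSimpleGroup ↥(Lie.chevF4.group F) := (S1054.result _ (by simp)).1
  refine autOdd_chev (by simp) (Schreier.Chev.sch_f4 F) hodd (c := 1) (c' := 2) one_ne_zero
    (fun r hr h => two_of_dvd_two hr h) ?_ 24 [2, 6, 8, 12] ?_ ?_
  · intro p f hp hc hF
    have : Fact p.Prime := ⟨hp⟩
    rw [S2122.result p f hF]
    exact mul_dvd_mul_right (Nat.gcd_dvd_left _ _) _
  · intro E _ _ _
    rw [S1062.result rfl]
    simp [mul_assoc]
  · rw [S1062.result rfl]
    simp [mul_assoc]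

theorem gcd_two_sub {q : ℕ} (hq : Odd q) : Nat.gcd 2 (q - 1) = 2 :=
  Nat.gcd_eq_left (Nat.Odd.sub_odd hq odd_one).two_dvd

/-- **`E₇`** -/
theorem autOdd_e7 (hodd : Odd (Fintype.card F)) : AutOdd ↥(Lie.chevE7.group F) := by
  have : IsSimpleGroup ↥(Lie.chevE7.group F) := (S1054.result _ (by simp)).1
  refine autOdd_chev (by simp) (Schreier.Chev.sch_e7 F) hodd (c := 2) (c' := 2) two_ne_zero
    (fun r hr h => two_of_dvd_two hr h) ?_ 63 [2, 6, 8, 10, 12, 14, 18] ?_ ?_
  · intro p f hp hc hF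
    have : Fact p.Prime := ⟨hp⟩
    rw [S2124.result p f hF]
    exact mul_dvd_mul_right (Nat.gcd_dvd_left _ _) _
  · intro E _ _ hE
    have h1 := S1064.result (F := E) rfl
    rw [gcd_two_sub hE] at h1
    rw [h1]
    simp [mul_assoc]
  · have h1 := S1064.result (F := F) rfl
    rw [gcd_two_sub hodd] at h1
    rw [h1]
    simp [mul_assoc]

/-- **`E₈`** -/
theorem autOdd_e8 (hodd : Odd (Fintype.card F)) : AutOdd ↥(Lie.chevE8.group F) := by
  have : IsSimpleGroup ↥(Lie.chevE8.group F) := (S1054.result _ (by simp)).1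
  refine autOdd_chev (by simp) (Schreier.Chev.sch_e8 F) hodd (c := 1) (c' := 2) one_ne_zero
    (fun r hr h => two_of_dvd_two hr h) ?_ 120 [2, 8, 12, 14, 18, 20, 24, 30] ?_ ?_
  · intro p f hp hc hF
    have : Fact p.Prime := ⟨hp⟩
    rw [S2125.result p f hF]
    exact dvd_mul_left _ _
  · intro E _ _ _
    rw [S1065.result rfl]
    simp [mul_assoc]
  · rw [S1065.result rfl]
    simp [mul_assoc]

end types

end Cfsg.Agent.H81.AoChev
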