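import Cfsg.Agent.H81.RankTwo
import Cfsg.Agent.ChevalleyStructure.Elts

/-!
Ranks of involutions of the group of type `chevE6` in characteristic 2 (helper81).
-/

set_option autoImplicit false
set_option maxRecDepth 100000

namespace Cfsg.Agent.H81.RkESix

open Cfsg.Lie Cfsg.Agent.H81.RankTwo

universe u

variable (K : Type u) [Field K] [CharP K 2]

/-- the table of `x_71(1)` -/
def t71 : List (ℕ × ℕ) :=
  [(1, 151115727451828646838272), (6, 151115727451828646838313), (7, 4503599627370496), (8, 9007199254740992), (9, 18014398509481984), (10, 36028797018963968), (11, 72057594037927936), (12, 144115188075855872), (13, 288230376151711744), (14, 576460752303423488), (15, 1152921504606846976), (16, 2305843009213693952), (22, 147573952589676412928), (23, 295147905179352825856), (24, 590295810358705651712), (25, 1180591620717411303424), (26, 2361183241434822606848), (27, 4722366482869645213696), (28, 9444732965739290427392), (29, 18889465931478580854784), (30, 37778931862957161709568), (31, 75557863725914323419136)]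

/-- the table of `x_60(1)` -/
def t60 : List (ℕ × ℕ) :=
  [(0, 73786976294838206464), (1, 73786976294838206464), (5, 73786976294838206464), (7, 16777216), (8, 67108864), (9, 134217728), (11, 536870912), (12, 1073741824), (14, 2147483648), (17, 73786976294838206525), (18, 4398046511104), (19, 17592186044416), (20, 140737488355328), (21, 2251799813685248), (32, 4611686018427387904), (36, 9223372036854775808), (39, 18446744073709551616), (41, 36893488147419103232), (52, 590295810358705651712), (53, 2361183241434822606848), (54, 4722366482869645213696), (56, 18889465931478580854784), (57, 37778931862957161709568), (59, 75557863725914323419136)]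

/-- the table of `x_44(1)` -/
def t44 : List (ℕ × ℕ) :=
  [(0, 1125899906842624), (1, 1125899906842624), (2, 1125899906842624), (4, 1125899906842624), (5, 1125899906842624), (7, 4096), (8, 16384), (10, 65536), (18, 2097152), (22, 268435456), (24, 1073741824), (26, 2147483648), (32, 2199023255552), (33, 1125899906842652), (34, 8796093022208), (35, 70368744177664), (37, 281474976710656), (40, 562949953421312), (42, 2251799813685248), (52, 144115188075855872), (53, 576460752303423488), (55, 2305843009213693952), (62, 36893488147419103232), (67, 9444732965739290427392), (69, 37778931862957161709568), (71, 75557863725914323419136)]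

theorem rank_71 : (wmat chevE6 K [71] - 1).rank = 22 :=
  rank_wmat (L := [(71, t71)]) (by decide +kernel)

theorem rank_71_60 : (wmat chevE6 K [71, 60] - 1).rank = 32 :=
  rank_wmat (L := [(71, t71), (60, t60)]) (by decide +kernel)

theorem rank_71_60_44 : (wmat chevE6 K [71, 60, 44] - 1).rank = 38 :=
  rank_wmat (L := [(71, t71), (60, t60), (44, t44)]) (by decide +kernel)

end Cfsg.Agent.H81.RkESix
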